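import Cfsg.Agent.E72.C
import Cfsg.Agent.E83.C

/-! Classes of elements of odd order, and subgroups `5² : S₃`. -/

set_option autoImplicit false

namespace CF.E72

open CF.Chev CF.BN CF.ExA CF.E83 Matrix Finset Module

theorem sumW {M : Type*} [AddCommMonoid M] {w : Equiv.Perm (Fin 126)} (hw : w ∈ cE7.W)
    (F : (Fin 7 → ℤ) → M) : ∑ c, F (wt c ᵥ* Mw cE7 w) = ∑ c, F (wt c) := by
  have := congrArg (fun S => (S.map F).sum) (winv_w56 w hw)
  simpa only [wts_w56, Multiset.map_map, Function.comp_def, sum_map_val] using this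

theorem sumL {M : Type*} [AddCommMonoid M] (F : (Fin 7 → ℤ) → M) :
    ∑ c, F (wt c) = (w56.map fun μ => F (fn 7 μ)).sum := by
  have := congrArg (fun S => (S.map F).sum) wts_w56
  simpa only [Multiset.map_map, Function.comp_def, sum_map_val, wts, Multiset.map_coe,
    Multiset.sum_coe, List.map_map] using this.symm

/-- The invariant form on the weights. -/
def Bf (μ ν : Fin 7 → ℤ) : ℤ := μ ᵥ* (of fun i j : Fin 7 => gd adE7 i j) ⬝ᵥ ν

theorem Bf_W {w : Equiv.Perm (Fin 126)} (hw : w ∈ cE7.W) (μ ν : Fin 7 → ℤ) :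
    Bf (μ ᵥ* Mw cE7 w) (ν ᵥ* Mw cE7 w) = Bf μ ν := by
  have := W_ind (C := cE7) (P := fun M => M * (of fun i j : Fin 7 => gd adE7 i j) * Mᵀ =
    of fun i j : Fin 7 => gd adE7 i j) (by simp) (fun M N h h' => by
      rw [transpose_mul, Matrix.mul_assoc M, Matrix.mul_assoc M, ← Matrix.mul_assoc _ Nᵀ, h',
        ← Matrix.mul_assoc, h]) (fun i => by
      rw [show Mw cE7 (cE7.sref i) = of fun k j : Fin 7 => (if k = j then 1 else 0) -
        if k = i then gd cmE7 j i else 0 from
        Matrix.ext fun k j => (Mw_sref_apply i k j).trans (by rw [cE7, carE7]; rfl)]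
      revert i; decide +kernel) hw
  rw [Bf, Bf, ← this, ← mulVec_transpose _ ν, dotProduct_mulVec, vecMul_vecMul, vecMul_vecMul,
    this, ← Matrix.mul_assoc, this]

variable {m : ℕ}

theorem dz_cast (x : Fin 7 → ℤ) (μ : List ℤ) :
    dz (fun i => (x i : ZMod m)) (fn 7 μ) = (dotL (List.ofFn x) μ : ℤ) := by
  rw [dotL_ofFn]; simp [dz]

/-- An invariant of pairs. -/
def gz (u v : Fin 7 → ZMod m) : ℤ := ∑ c, if dz u (wt c) = 1 ∧ dz v (wt c) = 0 then
  ∑ d, if dz v (wt d) = 1 ∧ dz u (wt d) = 0 then Bf (wt c) (wt d) else 0 else 0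

/-- The trace form. -/
def Bz (u v : Fin 7 → ZMod m) : ZMod m := ∑ c, dz u (wt c) * dz v (wt c)

theorem gz_W {w : Equiv.Perm (Fin 126)} (hw : w ∈ cE7.W) (u v : Fin 7 → ZMod m) :
    gz (Mz cE7 m w *ᵥ u) (Mz cE7 m w *ᵥ v) = gz u v := by
  simp only [gz, Mz, dz_mulVec]
  refine .trans (sum_congr rfl fun c _ => ?_) (sumW hw fun μ => if dz u μ = 1 ∧ dz v μ = 0 then
    ∑ d, if dz v (wt d) = 1 ∧ dz u (wt d) = 0 then Bf μ (wt d) else 0 else 0)
  rw [← sumW hw fun ν => if dz v ν = 1 ∧ dz u ν = 0 then Bf (wt c ᵥ* Mw cE7 w) ν else 0]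
  simp only [Bf_W hw]

theorem Bz_W {w : Equiv.Perm (Fin 126)} (hw : w ∈ cE7.W) (u v : Fin 7 → ZMod m) :
    Bz (Mz cE7 m w *ᵥ u) (Mz cE7 m w *ᵥ v) = Bz u v := by
  simp only [Bz, Mz, dz_mulVec]
  exact sumW hw fun μ => dz u μ * dz v μ

theorem nz_W {w : Equiv.Perm (Fin 126)} (hw : w ∈ cE7.W) (u : Fin 7 → ZMod m) :
    nz (wts 7 w56) (Mz cE7 m w *ᵥ u) = nz (wts 7 w56) u := winv_w56.hs hw _ _

/-- All tuples. -/
noncomputable def allT : ℕ → ℕ → (List ℕ → Bool) → Bool
  | 0, _, P => P []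
  | n + 1, m, P => allLt m fun s => force s fun s => allT n m fun t => P (s :: t)

theorem of_allT {n : ℕ} [NeZero m] {P : List ℕ → Bool} (h : allT n m P) (z : Fin n → ZMod m) :
    P (List.ofFn fun i => (z i).val) := by
  induction n generalizing P with
  | zero => exact h
  | succ n ih =>
    simp only [allT, allLt_iff, force_eq] at h
    rw [List.ofFn_succ]
    exact ih (P := fun t => P (_ :: t)) (h _ (ZMod.val_lt _)) _

/-- The number of weights that vanish. -/
noncomputable def nL (m : ℕ) (x : List ℤ) : ℕ :=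
  forceL x (hsL w56 m fun j => if j = 0 then 1 else 0)

/-- The class of elements of order `5`. -/
def x5 : List ℤ := [4, 5, 7, 10, 8, 6, 3]

/-- The dot product. -/
def dotN (x : List ℕ) : List ℕ → ℕ :=
  List.rec (fun _ => 0) (fun a _ ih y => List.rec 0 (fun b y _ => Nat.add (Nat.mul a b) (ih y)) y) x

theorem dotN_cast [NeZero m] (x : List ℕ) (μ : List ℤ) :
    (dotN x (μ.map fun a : ℤ => (a % m).toNat) : ZMod m) = (dotL (x.map (↑)) μ : ℤ) := by
  induction x generalizing μ with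
  | nil => simp [dotN, dotL]
  | cons a x ih =>
    obtain _ | ⟨b, μ⟩ := μ
    · simp [dotN, dotL]
    have : (((b % m).toNat : ℕ) : ZMod m) = b := by
      rw [← ZMod.val_intCast, Int.toNat_natCast, ZMod.natCast_zmod_val]
    rw [List.map_cons, List.map_cons, dotL, Int.cast_add, ← ih, Int.cast_mul, ← this]
    exact (Nat.cast_add (a * _) _).trans (by simp; rfl)

/-- The weights, their reductions and their values. -/
noncomputable def fW (L : List (List ℤ)) : (List (List ℤ × List ℕ × ℕ) → Bool) → Bool :=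
  List.rec (fun k => k []) (fun μ _ ih k => forceL μ fun μ =>
    Comp.forceL (μ.map fun a : ℤ => (a % (5 : ℕ)).toNat) fun a => force (dotL x5 μ % (5 : ℕ)).toNat
      fun b => ih fun t => k ((μ, a, b) :: t)) L

theorem fW_eq (L : List (List ℤ)) (k : List (List ℤ × List ℕ × ℕ) → Bool) : fW L k =
    k (L.map fun μ => (μ, μ.map fun a : ℤ => (a % (5 : ℕ)).toNat, (dotL x5 μ % (5 : ℕ)).toNat)) := by
  induction L generalizing k with
  | nil => rfl
  | cons e L ih => exact (forceL_eq _ _).trans ((Comp.forceL_eq _ _).trans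
      ((Chev.force_eq _ _).trans (ih _)))

/-- The values of the weights. -/
noncomputable def fT (z : List ℕ) (L : List (List ℤ × List ℕ × ℕ)) :
    (List (List ℤ × ℕ × ℕ) → Bool) → Bool :=
  List.rec (fun k => k []) (fun e _ ih k => Prod.rec (fun μ e => Prod.rec (fun a c =>
    force (dotN z a) fun b => ih fun t => k ((μ, c, b) :: t)) e) e) L

theorem fT_eq (z : List ℕ) (L : List (List ℤ × List ℕ × ℕ)) (k : List (List ℤ × ℕ × ℕ) → Bool) :
    fT z L k = k (L.map fun e => (e.1, e.2.2, dotN z e.2.1)) := by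
  induction L generalizing k with
  | nil => rfl
  | cons e L ih =>
    exact (Chev.force_eq _ fun b => fT z L fun t => k ((e.1, e.2.2, b) :: t)).trans (ih _)

/-- A conditional sum. -/
noncomputable def sC {α M : Type} [AddMonoid M] (L : List α) (P : α → Bool) (f : α → M) : M :=
  List.rec 0 (fun e _ ih => cnd (P e) (f e + ih) ih) L

theorem sC_eq {α M : Type} [AddMonoid M] (L : List α) (P : α → Bool) (f : α → M) :
    sC L P f = (L.map fun e => if P e then f e else 0).sum := by
  induction L with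
  | nil => rfl
  | cons e L ih =>
    rw [List.map_cons, List.sum_cons, ← ih, show sC (e :: L) P f = cnd (P e) _ _ from rfl]
    cases P e
    exacts [(zero_add _).symm, rfl]

/-- A linear combination of the two values. -/
def vP (a b : ℕ) (e : List ℤ × ℕ × ℕ) (j : ℕ) : Bool :=
  Nat.beq (Nat.mod (Nat.add (Nat.mul a e.2.1) (Nat.mul b e.2.2)) (nat_lit 5)) j

/-- The number of zeros. -/
noncomputable def nP (L : List (List ℤ × ℕ × ℕ)) (a b : ℕ) : ℕ :=
  force a fun a => force b fun b => sC L (vP a b · 0) fun _ => 1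

/-- The invariant of pairs. -/
noncomputable def gP (L : List (List ℤ × ℕ × ℕ)) (a b c d : ℕ) : ℤ :=
  force a fun a => force b fun b => force c fun c => force d fun d =>
    sC L (fun e => vP a b e 1 && vP c d e 0) fun e => forceL (adE7.map (dotL e.1)) fun x =>
      sC L (fun f => vP c d f 1 && vP a b f 0) fun f => dotL x f.1

theorem chk25 : fW w56 fun W => allT 5 5 fun t => Comp.forceL (0 :: t.take 4 ++ 0 :: t.drop 4)
    fun z => fT z W fun L => nP L 0 1 != 16 ||
    [1, 2, 3, 4].any (fun k => nP L 1 k != 16) || [0, 1, 2, 3, 4].all fun k =>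
    gP L 1 0 k 1 != gP L k 1 (4 + 4 * k) 4 || gP L k 1 (4 + 4 * k) 4 != gP L (4 + 4 * k) 4 1 0 ||
    gP L 1 0 (1 + 4 * k) 4 != gP L 4 0 (3 + 4 * k) 4 := by decide +kernel

theorem dotL_comm (x y : List ℤ) : dotL x y = dotL y x := by
  induction x generalizing y with
  | nil => cases y <;> rfl
  | cons a x ih => cases y <;> simp [dotL, ih, mul_comm]

theorem Bf_fn (μ ν : List ℤ) : Bf (fn 7 μ) (fn 7 ν) = dotL (adE7.map (dotL μ)) ν := by
  rw [show adE7 = List.ofFn fun j : Fin 7 => List.ofFn fun i : Fin 7 => gd adE7 i j by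
    decide +kernel, List.map_ofFn, dotL_ofFn]
  simp only [Function.comp, dotL_comm μ, dotL_ofFn, Bf, vecMul, dotProduct, of_apply, mul_comm]

theorem key25 (v : Fin 7 → ZMod 5) (h0 : v 0 = 0) (h5 : v 5 = 0) {u : Fin 7 → ZMod 5}
    (hu : u = fun i => (fn 7 x5 i : ZMod 5)) (h1 : nz (wts 7 w56) v = 16)
    (h2 : ∀ k : ℕ, nz (wts 7 w56) (u + k • v) = 16) (k : ℕ) (hk : k < 5)
    (t1 : gz u (k • u + v) = gz (k • u + v) ((4 + 4 * k) • u + 4 • v))
    (t2 : gz (k • u + v) ((4 + 4 * k) • u + 4 • v) = gz ((4 + 4 * k) • u + 4 • v) u)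
    (t3 : gz u ((1 + 4 * k) • u + 4 • v) = gz (4 • u) ((3 + 4 * k) • u + 4 • v)) : False := by
  have h := of_allT (fW_eq _ _ ▸ chk25) ![v 1, v 2, v 3, v 4, v 6]
  rw [Comp.forceL_eq, fT_eq, List.map_map, show (0 :: List.take 4 _ ++ 0 :: List.drop 4 _) =
    List.ofFn fun i => (v i).val by simp [List.ofFn_succ, h0, h5]] at h
  generalize hL : List.map _ w56 = L at h
  have h3 : ∀ a b j μ, j < 5 → (vP a b (μ, (dotL x5 μ % (5 : ℕ)).toNat, dotN (List.ofFn fun i =>
      (v i).val) (μ.map fun a : ℤ => (a % (5 : ℕ)).toNat)) j ↔ dz (a • u + b • v) (fn 7 μ) = j) :=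
    fun a b j μ hj => by
      have e1 : dz u (fn 7 μ) = ((dotL x5 μ % (5 : ℕ)).toNat : ℕ) := by
        rw [hu, dz_cast, ← ZMod.val_intCast, Int.toNat_natCast, ZMod.natCast_zmod_val]; rfl
      have e2 := dz_cast (m := 5) (fun i => (v i).val) μ
      simp only [Int.cast_natCast, ZMod.natCast_zmod_val] at e2
      rw [dz_add, dz_nsmul, dz_nsmul, e1, e2, show (List.ofFn fun i => ((v i).val : ℤ)) =
        (List.ofFn fun i => (v i).val).map (↑) from (List.map_ofFn ..).symm, ← dotN_cast,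
        ← Nat.cast_mul, ← Nat.cast_mul, ← Nat.cast_add, ZMod.natCast_eq_natCast_iff',
        Nat.mod_eq_of_lt hj, vP, Nat.beq_eq]
      rfl
  have h4 : ∀ a b, nP L a b = nz (wts 7 w56) (a • u + b • v) := fun a b => by
    simp only [nP, Chev.force_eq, sC_eq, ← hL, List.map_map, Function.comp_def, h3 _ _ 0 _ (by decide)]
    simp only [ExA.nz, hs, wts, Multiset.map_coe, Multiset.sum_coe, List.map_map, Function.comp_def,
      Nat.cast_zero]
  have h6 : ∀ a b c d, gP L a b c d = gz (a • u + b • v) (c • u + d • v) := fun a b c d => by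
    simp only [gP, Chev.force_eq, sC_eq, ← hL, List.map_map, Function.comp_def, Bool.and_eq_true,
      h3 _ _ 0 _ (by decide), h3 _ _ 1 _ (by decide), forceL_eq, ← Bf_fn, Nat.cast_zero,
      Nat.cast_one]
    rw [gz, sumL fun μ => if dz _ μ = 1 ∧ dz _ μ = 0 then
      ∑ d, if dz _ (wt d) = 1 ∧ dz _ (wt d) = 0 then Bf μ (wt d) else 0 else 0]
    refine congrArg _ (List.map_congr_left fun μ _ => ?_)
    rw [sumL fun ν => if dz _ ν = 1 ∧ dz _ ν = 0 then Bf _ ν else 0]
  simp only [h4, h6, one_smul, zero_smul, add_zero, zero_add, h1, h2, bne_self_eq_false,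
    List.any_eq_true, Bool.false_eq_true, and_false, exists_false, Bool.or_eq_true, false_or,
    List.all_eq_true] at h
  have := h k (by clear t1 t2 t3; interval_cases k <;> simp)
  simp only [bne_iff_ne] at this
  exact this.elim (fun k => k.elim (· t1) (· t2)) (· t3)

end CF.E72
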