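import Cfsg.Agent.E72.D

/-! Classes of elements of odd order, and subgroups `5² : S₃`. -/

set_option autoImplicit false

namespace CF.E72

open CF.Chev CF.BN CF.ExA CF.E83 Matrix Finset Module

variable {m : ℕ}

instance fact5 : Fact (Nat.Prime 5) := ⟨by norm_num⟩

theorem nz_cast [NeZero m] (x : Fin 7 → ℤ) :
    nz (wts 7 w56) (fun i => (x i : ZMod m)) = nL m (List.ofFn x) := by
  rw [nz_wts, nL, forceL_eq]

theorem lc_cast (a b : ℕ) (x y : Fin 7 → ℤ) : a • (fun i => (x i : ZMod m)) +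
    b • (fun i => (y i : ZMod m)) = fun i => ((a * x i + b * y i : ℤ) : ZMod m) := by
  funext i; simp

variable {K : Type*} [Field K] [CharP K 2] {X : Type*} [Group X]

section
variable {r : X →* End K (Fin 56 → K)} {V : Type*} {φ : V → X} {Y : V → Fin 7 → ZMod m}

omit [CharP K 2] in
theorem Co.dm (h : Co r φ Y) (v : V) : dm r (φ v) = nz (wts 7 w56) (Y v) := by
  classical
  obtain ⟨ψ, b, h1, h2⟩ := h.eig
  rw [E83.dm, show fs (r (φ v)) = (r (φ v)).eigenspace 1 by ext; simp [mem_fs],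
    finrank_eig b (h2 v), ExA.nz, hs, wts_w56, Multiset.map_map, sum_map_val, card_filter]
  refine sum_congr rfl fun c _ => if_congr ?_ rfl rfl
  rw [Units.val_eq_one, ← ψ.map_zero_eq_one, h1.eq_iff]

omit [CharP K 2] in
theorem Co.W (h : Co r φ Y) {w : Equiv.Perm (Fin 126)} (hw : w ∈ cE7.W) :
    Co r φ fun v => Mz cE7 m w *ᵥ Y v := by
  have h0 : ∀ {y z}, Mz cE7 m w *ᵥ y = Mz cE7 m w *ᵥ z ↔ y = z := fun {y z} =>
    ⟨fun e => by rw [← Mz_inv hw y, e, Mz_inv hw], congrArg _⟩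
  have h1 : ∀ {u} (hu : u ∈ cE7.W) y, Mz cE7 m (w * u * w⁻¹) *ᵥ Mz cE7 m w *ᵥ y =
      Mz cE7 m w *ᵥ Mz cE7 m u *ᵥ y := fun hu y => by
    rw [Mz_mul (mul_mem hw hu) (inv_mem hw), ← mulVec_mulVec, Mz_inv hw, Mz_mul hw hu,
      mulVec_mulVec]
  refine ⟨?_, fun a b => h0.trans (h.eq a b), fun a => ?_, ?_, fun u => ?_⟩
  · obtain ⟨ψ, b, h1, h2⟩ := h.eig
    have h3 : ∀ c, ∃ d, wt d ᵥ* Mw cE7 w = wt c := fun c => by
      have : wt c ∈ (wts 7 w56).map (· ᵥ* Mw cE7 w) := by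
        rw [winv_w56 w hw, wts_w56]
        exact Multiset.mem_map_of_mem _ (mem_univ c)
      rw [wts_w56, Multiset.map_map] at this
      exact (Multiset.mem_map.1 this).imp fun d hd => hd.2
    choose σ h3 using h3
    have h4 : Function.Injective σ := fun c d e => mins.inj (by rw [← h3, e, h3])
    refine ⟨ψ, b.reindex (.ofBijective σ h4.bijective_of_finite), h1, fun v c => ?_⟩
    obtain ⟨c, rfl⟩ := h4.bijective_of_finite.2 c
    rw [Basis.reindex_apply, Equiv.ofBijective_symm_apply_apply, h2, Mz, dz_mulVec, h3]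
  · rw [← h.zero, ← h0 (y := Y a), mulVec_zero]
  · obtain ⟨u, hu, e⟩ := h.frob
    exact ⟨_, mul_mem (mul_mem hw hu) (inv_mem hw), fun v => by rw [h1 hu, e, mulVec_smul]⟩
  · obtain ⟨u, hu, e⟩ := h.conj u
    exact ⟨_, mul_mem (mul_mem hw hu) (inv_mem hw), fun a b k => by rw [h1 hu, e a b k]⟩

end

variable {ρ : X →* Mt (ZMod 2)} (D : Dat K ρ)
include D

/-- Normal form for the first element. -/
theorem Dat.nf [NeZero m] (hm : Odd m) {a b : X} {ℓ k : ℕ} (h1 : ℓ.Prime) (h2 : ℓ ≠ 2)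
    (h3 : a ^ ℓ ^ k = 1) (hc : Commute a b) (ha : a ^ m = 1) (hb : b ^ m = 1) (h0 : a ≠ 1)
    {R : List ℕ → List ℤ → Bool}
    (h : allAlc [2, 2, 3, 4, 3, 2, 1] m (trA adE7 2 fun s x => x.all (· % m == 0) ||
      forceL (x.map ((2 : ℕ) * ·)) (hsL w56 m (64 ^ ·)) != hsL w56 m (64 ^ ·) x || R s x)) :
    ∃ (x z : Fin 7 → ℤ) (s : Fin 7 → ℕ), R (List.ofFn s) (List.ofFn x) ∧ Co (rK K ρ)
      (fun p : ℕ × ℕ => a ^ p.1 * b ^ p.2)
      fun p i => ((p.1 * x i + p.2 * z i : ℤ) : ZMod m) := by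
  obtain ⟨y, z, c⟩ := D.tor hm h1 h2 h3 hc ha hb
  obtain ⟨w, hw, x, s, e, -, k⟩ := rat_E7 h (y := y)
    (fun e => h0 (by simpa using (c.zero (1, 0)).1 (by simp [e])))
    (c.frob.imp fun w hw => ⟨hw.1, by simpa using hw.2 (1, 0)⟩)
  refine ⟨x, fun i => ((Mz cE7 m w *ᵥ z) i).val, s, k, ?_⟩
  convert c.W hw using 2 with p
  rw [mulVec_add, mulVec_smul, mulVec_smul, e]
  funext i
  simp

theorem Dat.dm_mem [NeZero m] {a : X} {ℓ k : ℕ} (h1 : ℓ.Prime) (h2 : ℓ ≠ 2) (hm : m = ℓ ^ k)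
    (ha : a ^ m = 1) (h0 : a ≠ 1) {l : List ℕ}
    (h : allAlc [2, 2, 3, 4, 3, 2, 1] m (trA adE7 2 fun _ x => x.all (· % m == 0) ||
      forceL (x.map ((2 : ℕ) * ·)) (hsL w56 m (64 ^ ·)) != hsL w56 m (64 ^ ·) x || nL m x ∈ l)) :
    dm (rK K ρ) a ∈ l := by
  obtain ⟨x, z, s, k, c⟩ := D.nf (hm ▸ (h1.odd_of_ne_two h2).pow) h1 h2 (hm ▸ ha) (.one_right a) ha
    (one_pow _) h0 h
  have := c.dm (1, 0)
  simp only [pow_one, pow_zero, mul_one, Nat.cast_one, one_mul, Nat.cast_zero, zero_mul, add_zero,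
    nz_cast] at this
  simpa [this] using k

theorem Dat.d5 {a : X} (ha : a ^ 5 = 1) (h0 : a ≠ 1) : dm (rK K ρ) a = 16 :=
  List.mem_singleton.1 (D.dm_mem (ℓ := 5) (k := 1) (by norm_num) (by decide) rfl ha h0
    (by decide +kernel))

theorem Dat.fix255 {a b : X} (ha : a * a = 1) (hb : b ^ 5 = 1) (h0 : b ≠ 1) (hc : (a * b) ^ 5 = 1)
    (h1 : a * b ≠ 1) : Fix (rK K ρ) (Subgroup.closure {a, b}) := by
  have := dm_two (r := rK K ρ) ha
  refine fix_scott ?_
  rw [D.d5 hb h0, D.d5 hc h1]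
  rw [finrank_fin_fun] at this ⊢
  omega

theorem Dat.no25 {a b s t : X} (hc : Commute a b) (ha : a ^ 5 = 1) (h1 : a ≠ 1)
    (sa : s * a * s⁻¹ = b) (sb : s * b * s⁻¹ = a ^ 4 * b ^ 4) (ta : t * a * t⁻¹ = a ^ 4)
    (tb : t * b * t⁻¹ = a * b) : False := by
  have hb : b ^ 5 = 1 := by rw [← sa, conj_pow, ha]; simp
  obtain ⟨x, z, -, k, c⟩ := D.nf (m := 5) (ℓ := 5) (k := 1) (by decide) (by norm_num) (by decide) ha
    hc ha hb h1 (R := fun _ x => x == x5) (by decide +kernel)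
  replace c : Co (rK K ρ) (fun p : ℕ × ℕ => a ^ p.1 * b ^ p.2) fun p =>
      p.1 • (fun i => (x i : ZMod 5)) + p.2 • fun i => (z i : ZMod 5) := by
    simpa only [lc_cast] using c
  obtain rfl : x = fn 7 x5 := by rw [← beq_iff_eq.1 k]; funext i; fin_cases i <;> rfl
  generalize hu : (fun i => (fn 7 x5 i : ZMod 5)) = u, (fun i => (z i : ZMod 5)) = v at c
  have h5 : ∀ v, Bz u v = 2 * (v 0 + v 5) := fun v => by
    have : ∀ i, ∑ c, dz (fun i => (fn 7 x5 i : ZMod 5)) (wt c) * wt c i =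
      if i = 0 ∨ i = 5 then 2 else 0 := by decide +kernel
    simp only [← hu, Bz, show ∀ μ, dz v μ = ∑ i, (μ i : ZMod 5) * v i from
      fun μ => sum_congr rfl fun _ _ => mul_comm _ _, mul_sum, ← mul_assoc]
    rw [sum_comm]
    simp only [← sum_mul, this]
    simp [Fin.sum_univ_succ, mul_add]
  obtain ⟨w, hw, e1⟩ := c.frob
  obtain ⟨w', hw', e2⟩ := c.conj s
  obtain ⟨w'', hw'', e3⟩ := c.conj t
  have k1 := e1 (1, 0)
  have k2 := e1 (0, 1)
  have k3 := e2 (1, 0) (0, 1) (by simpa using sa)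
  have k4 := e2 (0, 1) (4, 4) (by simpa using sb)
  have k5 := e3 (1, 0) (4, 0) (by simpa using ta)
  have k6 := e3 (0, 1) (1, 1) (by simpa using tb)
  have k7 := mt (c.zero (1, 0)).1 (by simpa using h1)
  simp only [one_smul, zero_smul, add_zero, zero_add] at k1 k2 k3 k4 k5 k6 k7
  have h7 : ∀ y : Fin 7 → ZMod 5, 5 • y = 0 := fun y => funext fun i => by
    rw [Pi.smul_apply, nsmul_eq_mul, ZMod.natCast_self, zero_mul]; rfl
  have h2 : ∀ i j : ℕ, ((i * i + 4 * i * j + j * j : ℕ) : ZMod 5) ≠ 0 →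
      nz (wts 7 w56) (i • u + j • v) = 16 := fun i j h => by
    refine (c.dm (i, j)).symm.trans (D.d5 (by
      rw [(hc.pow_pow _ _).mul_pow, pow_right_comm, ha, pow_right_comm, hb]; simp)
      fun e => k7 ((smul_eq_zero_iff_right h).1 ?_))
    have e4 := (c.zero (i, j)).2 e
    have e5 := congrArg (Mz cE7 5 w' *ᵥ ·) e4
    simp only [mulVec_add, mulVec_smul, k3, k4, mulVec_zero] at e4 e5
    rw [Nat.cast_smul_eq_nsmul]
    linear_combination (norm := module) (i + 4 * j) • e4 + (4 * j) • e5 - (3 * j * j) • h7 u -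
      (i * j + 4 * j * j) • h7 v
  have t1 := gz_W hw' u v
  have t2 := gz_W hw' v (4 • u + 4 • v)
  have t3 := gz_W hw'' u (u + 4 • v)
  simp only [mulVec_add, mulVec_smul, k3, k4, k5, k6] at t1 t2 t3
  rw [show 4 • v + 4 • (4 • u + 4 • v) = u by
    linear_combination (norm := module) 3 • h7 u + 4 • h7 v] at t2
  rw [show 4 • u + 4 • (u + v) = 3 • u + 4 • v by linear_combination (norm := module) h7 u] at t3
  have h6 := Bz_W hw u v
  rw [k1, k2, show Bz (2 • u) (2 • v) = 4 * Bz u v by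
    simp only [Bz, dz_nsmul, mul_sum]; exact sum_congr rfl fun _ _ => by push_cast; ring, h5] at h6
  obtain ⟨k, hk, e⟩ : ∃ k < 5, v 0 + (4 * k : ℕ) * 4 = 0 ∧ v 5 + (4 * k : ℕ) * 6 = 0 := by
    revert h6; generalize v 0 = p, v 5 = q; revert p q; decide
  have e' : k • u + ((4 * k) • u + v) = v := by linear_combination (norm := module) k • h7 u
  refine key25 ((4 * k) • u + v) (by simpa [← hu, fn, x5, add_comm] using e.1)
    (by simpa [← hu, fn, x5, add_comm] using e.2) hu.symm ?_ (fun j => ?_) k hk ?_ ?_ ?_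
  · simpa using h2 (4 * k) 1 (by clear e e'; revert k; decide)
  · rw [← h2 (1 + j * (4 * k)) j (by
      push_cast; generalize (j : ZMod 5) = p, (k : ZMod 5) = q; revert p q; decide)]
    congr 1; module
  all_goals
    have e1 : ∀ n : ℕ, (n + 4 * k) • u + 4 • ((4 * k) • u + v) = n • u + 4 • v := fun n => by
      linear_combination (norm := module) (4 * k) • h7 u
    simp only [e', e1, one_smul]
  exacts [t1.symm, t2.symm, t3.symm]

end CF.E72
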